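import Cfsg.Agent.H316.HT.Defs
import Cfsg.Agent.H649.Transport
import Cfsg.Agent.S4710
import Cfsg.Agent.Blocks.PrincipalSection

/-!
# S4933, pairs with `|P| = p³` (helper307): from the degree to `Good`

* `good_of_dvd` : `|G| = p³ n`, `χ` in the principal block of degree divisible by `p`: `Good p a M G` for every `a > 0`;
* `Good.congr` : transport.
-/

set_option autoImplicit false
set_option linter.unusedSectionVars false

open Cfsg Subgroup

namespace Cfsg.Agent.H307.HT

open Cfsg.Agent.H316.HT
open Cfsg.Agent.Blocks Cfsg.Agent.Blocks.Basic Cfsg.Agent.Blocks.Local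

universe u v

theorem sInf_principal {G : Type u} [Group G] (p : ℕ) {M : Ideal AlgInt} (hM : IsPModular p M) :
    sInf ((fun ψ : IrrCharacter G => (charDegree (ψ : G → ℂ)).factorization p) '' principalBlock M G) = 0 := by
  have := isPrime_of_isPModular hM
  rw [Nat.sInf_eq_zero]
  left
  refine ⟨⟨fun _ => 1, isIrrCharacter_one⟩, PrincipalSection.one_mem_principalBlock, ?_⟩
  show (charDegree (fun _ : G => (1 : ℂ))).factorization p = 0
  rw [charDegree_of_eq (n := 1) (by simp)]
  simp

theorem height_principal {G : Type u} [Group G] (p : ℕ) {M : Ideal AlgInt} (hM : IsPModular p M) (χ : G → ℂ) :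
    blockHeight p (principalBlock M G) χ = (charDegree χ).factorization p := by
  rw [blockHeight_def, sInf_principal p hM, Nat.sub_zero]

theorem defect_principal {G : Type u} [Group G] (p : ℕ) {M : Ideal AlgInt} (hM : IsPModular p M) :
    blockDefect p (principalBlock M G) = (Nat.card G).factorization p := by
  unfold blockDefect
  rw [sInf_principal p hM, Nat.sub_zero]

/-- **`|G| = p³ n`: a character of degree divisible by `p` in the principal block is enough.** -/
theorem good_of_dvd {G : Type u} [Group G] [Finite G] {p : ℕ} [Fact p.Prime] {M : Ideal AlgInt} (hM : IsPModular p M)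
    {n : ℕ} (hN : Nat.card G = p ^ 3 * n) (hn : ¬ p ∣ n)
    (h : ∃ χ ∈ principalBlock M G, p ∣ charDegree (χ : G → ℂ)) {a : ℕ} (ha : 0 < a) : Good p a M G := by
  have hp : p.Prime := Fact.out
  have hMp := isPrime_of_isPModular hM
  obtain ⟨χ, hχ, hd⟩ := h
  have hn0 : n ≠ 0 := by
    rintro rfl
    exact hn (dvd_zero _)
  have hv : (Nat.card G).factorization p = 3 := by
    rw [hN, Nat.factorization_mul (pow_ne_zero _ hp.ne_zero) hn0, Finsupp.add_apply, Nat.factorization_pow,
      Finsupp.smul_apply, hp.factorization_self, Nat.factorization_eq_zero_of_not_dvd hn]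
    simp
  have h1 := ((S4710.result p M hM _ PrincipalSection.isPBlock_principalBlock 3
    (by rw [defect_principal p hM, hv])).2 χ hχ).2 (by norm_num)
  rw [height_principal p hM] at h1
  have h2 : 1 ≤ (charDegree (χ : G → ℂ)).factorization p :=
    (Nat.Prime.dvd_iff_one_le_factorization hp (charDegree_pos χ.2).ne').1 hd
  exact ⟨χ, hχ, by unfold vd; omega, by unfold vd; omega⟩

theorem good_congr {G : Type u} [Group G] {H : Type v} [Group H] (e : G ≃* H) {p a : ℕ} {M : Ideal AlgInt}
    (h : Good p a M G) : Good p a M H := by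
  obtain ⟨χ, h1, h2, h3⟩ := h
  refine ⟨H649.irrMap e χ, ?_, ?_, ?_⟩
  · rw [← H649.blkMap_principalBlock e, H649.irrMap_mem_blkMap]
    exact h1
  · unfold vd at h2 ⊢
    rwa [H649.charDegree_irrMap]
  · unfold vd at h3 ⊢
    rwa [H649.charDegree_irrMap]

/-- if the simple group is good for every `a`, the row `RowIn` holds -/
theorem rowIn_of {p : ℕ} {G : Type u} [Group G] (h : ∀ M : Ideal AlgInt, IsPModular p M → ∀ a : ℕ, 0 < a → Good p a M G)
    {S : Type v} [Group S] (e : G ≃* S) : RowIn p S := fun M hM _ a ha _ => good_congr e (h M hM a ha)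

end Cfsg.Agent.H307.HT
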