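import Cfsg.Agent.H307.HT.TiCube
import Cfsg.Agent.H307.HT.Glue
import Cfsg.Agent.H35.TI.McLCent

/-!
# S4933: `McL`, `p = 5` (helper307)
-/

set_option autoImplicit false
set_option linter.unusedSectionVars false

open Cfsg Subgroup
open scoped commutatorElement

namespace Cfsg.Agent.H307.HT.McL5

open Cfsg.Agent.McLType.X275 Cfsg.Agent.McLType.Gens Cfsg.Agent.McLType.Model Cfsg.Agent.H58.McLOdd
open Cfsg.Agent.H686.Odd.McL Cfsg.Agent.H35.TI Cfsg.Agent.H316.HT

theorem conj_c {u : G1} (hu : u ∈ zpowers c) (hu1 : u ≠ 1) : IsConj c u := by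
  have h5 : c ^ 5 = 1 := by rw [← order_c, pow_orderOf_eq_one]
  obtain ⟨k, rfl⟩ := mem_powers_iff_mem_zpowers.2 hu
  have hc := Cfsg.Agent.H729.TI.hc
  have red : ∀ m : ℕ, c ^ m = c ^ (m % 5) := fun m => by
    conv_lhs => rw [← Nat.div_add_mod m 5, pow_add, pow_mul, h5, one_pow, one_mul]
  have h1 : IsConj c (c ^ 2) := isConj_iff.2 ⟨_, hc⟩
  have h2 : IsConj (c ^ 2) (c ^ 4) := isConj_iff.2 ⟨wd Cfsg.Agent.H729.TI.h14, by rw [← conj_pow, hc, ← pow_mul]⟩
  have h3 : IsConj (c ^ 4) (c ^ 3) := isConj_iff.2 ⟨wd Cfsg.Agent.H729.TI.h14, by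
    rw [← conj_pow, hc, ← pow_mul, red]⟩
  show IsConj c (c ^ k)
  rw [red k]
  have h6 : k % 5 = 0 ∨ k % 5 = 1 ∨ k % 5 = 2 ∨ k % 5 = 3 ∨ k % 5 = 4 := by omega
  rcases h6 with h6 | h6 | h6 | h6 | h6
  · exfalso
    apply hu1
    show c ^ k = 1
    rw [red k, h6, pow_zero]
  all_goals rw [h6]
  · rw [pow_one]
  · exact h1
  · exact (h1.trans h2).trans h3
  · exact h1.trans h2

theorem z_comm {u : G1} (hu : u ∈ P5) : c * u = u * c :=
  (mem_centralizer_singleton_iff.1 (closure_le_c hu)).symm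

theorem pow_five_of_conj {x : G1} (hx : IsConj c x) : x ^ 5 = 1 := by
  have h : orderOf x = 5 := by rw [← H34.TI.orderOf_conj hx, order_c]
  rw [← h, pow_orderOf_eq_one]

theorem mem_of_comm_c {x : G1} (hx : IsConj c x) (h : x * c = c * x) : x ∈ zpowers c := by
  by_contra hcon
  have h1 : x ∈ P5 := mem_P5 h (by rw [show (125 : ℕ) = 5 * 25 by norm_num, pow_mul, pow_five_of_conj hx, one_pow])
  have h2 := card_cent_noncentral h1 hcon
  obtain ⟨w, hw⟩ := isConj_iff.1 hx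
  rw [← hw, card_cent_conj, Cfsg.Agent.H35.TI.card_c, card_a] at h2
  omega

theorem key {x u : G1} (hx : IsConj c x) (hu : u ∈ P5) (hu1 : u ≠ 1) (hxu : x * u = u * x) : x ∈ zpowers c := by
  apply mem_of_comm_c hx
  by_cases h : u ∈ zpowers c
  · have hz : c ∈ zpowers u := by
      have h1 : orderOf u = 5 := by rw [← H34.TI.orderOf_conj (conj_c h hu1), order_c]
      have h2 : zpowers u = zpowers c := by
        refine Subgroup.eq_of_le_of_card_ge (zpowers_le.2 h) ?_
        rw [Nat.card_zpowers, Nat.card_zpowers, h1, order_c]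
      rw [h2]
      exact mem_zpowers _
    obtain ⟨k, hk⟩ := mem_zpowers_iff.1 hz
    rw [← hk]
    exact ((show Commute x u from hxu).zpow_right k).eq
  · have h1 : Nat.card (centralizer ({u} : Set G1)) = 5 ^ 2 := by
      rw [card_cent_noncentral hu h, card_a]
      norm_num
    have : Fact (Nat.Prime 5) := ⟨by norm_num⟩
    have hab := (IsPGroup.isMulCommutative_of_card_eq_prime_sq h1).is_comm.comm
      ⟨x, mem_centralizer_singleton_iff.2 hxu⟩ ⟨c, mem_centralizer_singleton_iff.2 (z_comm hu)⟩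
    exact congrArg Subtype.val hab

theorem tc : TC 5 c P5 where
  card_P := by rw [card_P5]; norm_num
  ord_z := order_c
  z_comm := fun u hu => z_comm hu
  conj_z := fun u hu hu1 => conj_c hu hu1
  key := fun x u hx hu hu1 h => key hx hu hu1 h
  mem_P := fun g hg h => mem_P5 hg (by rw [show (125 : ℕ) = 5 ^ 3 by norm_num]; exact h)

theorem order_b : orderOf b = 5 := by
  have : Fact (Nat.Prime 5) := ⟨by norm_num⟩
  refine orderOf_eq_prime b_pow fun h => c_ne ?_
  rw [c, h, commutatorElement_def]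
  group

theorem rel : a * b * a⁻¹ = b * c := by
  have h : b * c = c * b := (z_comm b_mem).symm
  rw [h, c, commutatorElement_def]
  group

theorem index_c : (centralizer ({c} : Set G1)).index = 1197504 := by
  have h := (centralizer ({c} : Set G1)).card_mul_index
  rw [Cfsg.Agent.H35.TI.card_c, card_G1] at h
  omega

theorem card_eq : Nat.card G1 = 5 ^ 3 * 7185024 := by rw [card_G1]; norm_num

theorem exists_deg : ∃ χ : IrrCharacter G1, 5 ∣ charDegree (χ : G1 → ℂ) ∧ ¬ 5 ^ 3 ∣ charDegree (χ : G1 → ℂ) :=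
  tc.exists_deg (by norm_num) (by norm_num) card_eq (by norm_num) index_c (by norm_num) order_b
    (z_comm b_mem).symm (z_comm a_mem).symm rel

theorem pgroup_cent (Q : Sylow 5 G1) : IsPGroup 5 (centralizer ((Q : Subgroup G1) : Set G1)) := by
  have : Fact (Nat.Prime 5) := ⟨by norm_num⟩
  have hP : IsPGroup 5 P5 := IsPGroup.of_card (n := 3) (by rw [card_P5]; norm_num)
  obtain ⟨R, hR⟩ := hP.exists_le_sylow
  obtain ⟨g, hg⟩ := MulAction.exists_smul_eq G1 R Q
  have ha : g * a * g⁻¹ ∈ (Q : Subgroup G1) := by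
    rw [← hg]
    exact ⟨a, hR a_mem, rfl⟩
  have h1 : Nat.card (centralizer ({g * a * g⁻¹} : Set G1)) = 5 ^ 2 := by
    rw [card_cent_conj, card_a]
    norm_num
  have h2 : IsPGroup 5 (centralizer ({g * a * g⁻¹} : Set G1)) := IsPGroup.of_card h1
  exact h2.to_le (centralizer_le (Set.singleton_subset_iff.2 ha))

/-- **(McL, 5)** -/
theorem exists_pos [Fact (Nat.Prime 5)] {M : Ideal AlgInt} (hM : IsPModular 5 M) :
    ∃ χ ∈ principalBlock M G1, 5 ∣ charDegree (χ : G1 → ℂ) ∧ ¬ 5 ^ 3 ∣ charDegree (χ : G1 → ℂ) := by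
  obtain ⟨χ, h1, h2⟩ := exists_deg
  exact ⟨χ, tc.mem_principal card_eq (by norm_num) hM pgroup_cent χ h2, h1, h2⟩

/-- **`RowIn 5 McL`** -/
theorem rowIn {S : Type} [Group S] (h : Spor.IsoMcL S) : RowIn 5 S := by
  have : Fact (Nat.Prime 5) := ⟨by norm_num⟩
  obtain ⟨e⟩ := h
  obtain ⟨e'⟩ := isoMcL_G1
  refine rowIn_of (G := G1) (fun M hM a ha => ?_) (e'.trans e.symm)
  obtain ⟨χ, h1, h2, -⟩ := exists_pos hM
  exact good_of_dvd hM card_eq (by norm_num) ⟨χ, h1, h2⟩ ha

end Cfsg.Agent.H307.HT.McL5
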