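import Cfsg.Agent.Characters.Clifford
import Cfsg.Agent.Characters.GaloisBasic

/-!
# S4933, pairs with `|P| = p³` (helper307): the value at a central element of an extraspecial group of order `p³`

* `exists_int` : `z` conjugate to its powers: `χ(z)` is an integer;
* `sq_dvd` : `z = [t, g]` commutes with `g`, `t`: `p² ∣ χ(1) - χ(z)`.
-/

set_option autoImplicit false
set_option linter.unusedSectionVars false

open Subgroup Cfsg
open scoped ComplexConjugate

namespace Cfsg.Agent.H307.HT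

open Cfsg.Agent.Characters.Core

universe u

theorem sum_all {E : Type u} [Group E] [Fintype E] {χ : E → ℂ} (hχ : IsCharacter E χ) :
    ∃ m : ℕ, ∑ g : E, χ g = (Nat.card E : ℂ) * m := by
  obtain ⟨m, hm⟩ := classInner_isNat hχ (isIrr_isCharacter (isIrr_one (G := E)))
  rw [classInner_def] at hm
  have e1 : ∀ q : E, χ q * conj ((1 : E → ℂ) q) = χ q := by
    intro q; simp
  rw [Finset.sum_congr rfl fun q _ => e1 q] at hm
  refine ⟨m, ?_⟩
  have h0 : (Nat.card E : ℂ) ≠ 0 := by exact_mod_cast Nat.card_pos.ne'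
  field_simp at hm
  exact hm

variable {G : Type u} [Group G] [Finite G]

theorem apply_conj {χ : G → ℂ} (hχ : IsCharacter G χ) {g k : G} (hc : IsConj g k) : χ g = χ k := by
  obtain ⟨c, rfl⟩ := isConj_iff.1 hc
  exact (isCharacter_isClassFunction hχ g c).symm

/-- the sum over a cyclic group -/
theorem sum_zpowers {χ : G → ℂ} (hχ : IsCharacter G χ) (g : G) [Fintype (zpowers g)] :
    ∃ m : ℕ, ∑ u : zpowers g, χ u = (Nat.card (zpowers g) : ℂ) * m :=
  sum_all (E := zpowers g) (Characters.Clifford.isCharacter_restrict (zpowers g) hχ)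

theorem sum_const {χ : G → ℂ} {z : G} [Fintype (zpowers z)] {a : ℂ}
    (ha : ∀ u ∈ zpowers z, u ≠ 1 → χ u = a) :
    ∑ u : zpowers z, χ u = (Nat.card (zpowers z) : ℂ) * a + (χ 1 - a) := by
  classical
  have h : ∀ u : zpowers z, χ u = a + if u = 1 then (χ 1 - a) else 0 := by
    intro u
    by_cases hu : u = 1
    · subst hu
      rw [if_pos rfl, Subgroup.coe_one]; ring
    · rw [if_neg hu, add_zero]
      exact ha u u.2 fun h => hu (Subtype.ext h)
  rw [Finset.sum_congr rfl fun u _ => h u, Finset.sum_add_distrib, Finset.sum_const, Finset.card_univ,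
    Finset.sum_ite_eq' Finset.univ (1 : zpowers z), if_pos (Finset.mem_univ _), nsmul_eq_mul,
    Nat.card_eq_fintype_card]

/-- the value at `z` is an integer -/
theorem exists_int {p : ℕ} (hp : p.Prime) {z : G} (hz : orderOf z = p) (hc : ∀ u ∈ zpowers z, u ≠ 1 → IsConj z u)
    {χ : G → ℂ} (hχ : IsCharacter G χ) {d : ℤ} (hd : χ 1 = d) : ∃ a : ℤ, χ z = a := by
  classical
  have := Fintype.ofFinite (zpowers z)
  obtain ⟨m, hm⟩ := sum_zpowers hχ z
  have h1 := sum_const (χ := χ) (z := z) (a := χ z) fun u hu hu1 => (apply_conj hχ (hc u hu hu1)).symm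
  rw [hm, Nat.card_zpowers, hz, hd] at h1
  apply Characters.GaloisBasic.exists_int_of_isIntegral (Characters.GaloisBasic.isIntegral_apply hχ z)
  have h0 : ((p : ℂ) - 1) ≠ 0 := by
    have h3 : ((p - 1 : ℕ) : ℂ) ≠ 0 := by
      have := hp.two_le
      exact_mod_cast (by omega : p - 1 ≠ 0)
    rw [Nat.cast_sub hp.one_lt.le, Nat.cast_one] at h3
    exact h3
  refine ⟨(p * m - d) / (p - 1), ?_⟩
  push_cast
  rw [eq_div_iff h0]
  linear_combination -h1

/-- **`p² ∣ χ(1) - χ(z)`** -/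
theorem sq_dvd {p : ℕ} (hp : p.Prime) {z g t : G} (hz : orderOf z = p) (hg : orderOf g = p)
    (hgz : g * z = z * g) (htz : t * z = z * t) (ht : t * g * t⁻¹ = g * z)
    {χ : G → ℂ} (hχ : IsCharacter G χ) {d a : ℤ} (hd : χ 1 = d)
    (ha : ∀ v ∈ zpowers z, v ≠ 1 → χ v = a) : (p : ℤ) ^ 2 ∣ d - a := by
  classical
  have i1 := Fintype.ofFinite (zpowers z)
  have i2 := Fintype.ofFinite (zpowers g)
  have hcm : Commute g z := hgz
  have hcc : ∀ (u : zpowers g) (v : zpowers z), Commute (u : G) (v : G) := by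
    rintro ⟨u, k, rfl⟩ ⟨v, l, rfl⟩
    exact (hcm.zpow_left k).zpow_right l
  -- `t ^ k` moves `g ^ i` to `g ^ i * z ^ (i k)`
  have hconj : ∀ (u : zpowers g) (v : zpowers z), u ≠ 1 → χ ((u : G) * v) = χ u := by
    rintro ⟨u, hu⟩ ⟨v, hv⟩ hu1
    obtain ⟨i, rfl⟩ := mem_powers_iff_mem_zpowers.2 hu
    obtain ⟨j, rfl⟩ := mem_powers_iff_mem_zpowers.2 hv
    have hi : ¬ p ∣ i := by
      rintro ⟨l, rfl⟩
      apply hu1
      apply Subtype.ext
      show g ^ (p * l) = 1
      rw [pow_mul, ← hg, pow_orderOf_eq_one, one_pow]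
    -- `k` with `i k = j` modulo `p`
    obtain ⟨k, hk⟩ : ∃ k : ℕ, i * k ≡ j [MOD p] := by
      obtain ⟨m, hm⟩ := Nat.exists_mul_mod_eq_one_of_coprime (((Nat.Prime.coprime_iff_not_dvd hp).2 hi).symm) hp.one_lt
      refine ⟨m * j, ?_⟩
      rw [← mul_assoc]
      calc i * m * j ≡ 1 * j [MOD p] := Nat.ModEq.mul_right j (by
            unfold Nat.ModEq
            rw [hm.2, Nat.mod_eq_of_lt hp.one_lt])
        _ = j := one_mul j
    have htz' : Commute t z := htz
    have h1 : ∀ k : ℕ, t ^ k * g * (t ^ k)⁻¹ = g * z ^ k := by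
      intro k
      induction k with
      | zero => simp
      | succ k ih =>
        rw [pow_succ', _root_.mul_inv_rev]
        calc t * t ^ k * g * ((t ^ k)⁻¹ * t⁻¹) = t * (t ^ k * g * (t ^ k)⁻¹) * t⁻¹ := by group
          _ = t * (g * z ^ k) * t⁻¹ := by rw [ih]
          _ = (t * g * t⁻¹) * (t * z ^ k * t⁻¹) := by group
          _ = (g * z) * z ^ k := by rw [ht, (htz'.pow_right k).eq, mul_inv_cancel_right]
          _ = _ := by rw [mul_assoc, pow_succ']
    have h2 : t ^ k * g ^ i * (t ^ k)⁻¹ = g ^ i * z ^ j := by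
      rw [← conj_pow, h1, (hcm.pow_right k).mul_pow, ← pow_mul]
      congr 1
      rw [pow_eq_pow_iff_modEq, hz, mul_comm]
      exact hk
    show χ (g ^ i * z ^ j) = χ (g ^ i)
    exact (apply_conj hχ (isConj_iff.2 ⟨t ^ k, h2⟩)).symm
  -- the sum over `⟨g⟩ × ⟨z⟩`
  let φ : (zpowers g) × (zpowers z) →* G := MonoidHom.noncommCoprod (zpowers g).subtype (zpowers z).subtype hcc
  obtain ⟨m2, hm2⟩ := sum_all (E := (zpowers g) × (zpowers z)) (isCharacter_comp φ hχ)
  obtain ⟨m1, hm1⟩ := sum_zpowers hχ g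
  have h3 : ∑ x : (zpowers g) × (zpowers z), (χ ∘ φ) x =
      ∑ u : zpowers g, ∑ v : zpowers z, χ ((u : G) * v) := by
    rw [Fintype.sum_prod_type]
    rfl
  have h4 : ∀ u : zpowers g, ∑ v : zpowers z, χ ((u : G) * v) = (p : ℂ) * χ u +
      if u = 1 then ((p : ℂ) * a + (d - a) - (p : ℂ) * d) else 0 := by
    intro u
    by_cases hu : u = 1
    · subst hu
      rw [if_pos rfl, Subgroup.coe_one]
      simp only [one_mul]
      rw [sum_const ha, Nat.card_zpowers, hz, hd]
      ring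
    · rw [if_neg hu, add_zero, Finset.sum_congr rfl fun v _ => hconj u v hu, Finset.sum_const, Finset.card_univ,
        nsmul_eq_mul, ← Nat.card_eq_fintype_card, Nat.card_zpowers, hz]
  rw [h3, Finset.sum_congr rfl fun u _ => h4 u, Finset.sum_add_distrib, ← Finset.mul_sum, hm1,
    Finset.sum_ite_eq' Finset.univ (1 : zpowers g), if_pos (Finset.mem_univ _), Nat.card_prod, Nat.card_zpowers,
    Nat.card_zpowers, hz, hg] at hm2
  have h5 : ((p : ℤ) - 1) * (d - a) = (p : ℤ) ^ 2 * (m1 - m2) := by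
    have h6 : ((((p : ℤ) - 1) * (d - a) : ℤ) : ℂ) = (((p : ℤ) ^ 2 * (m1 - m2) : ℤ) : ℂ) := by
      push_cast at hm2 ⊢
      linear_combination -hm2
    exact_mod_cast h6
  have h6 : IsCoprime ((p : ℤ) ^ 2) ((p : ℤ) - 1) := by
    apply IsCoprime.pow_left
    exact ⟨1, -1, by ring⟩
  exact h6.dvd_of_dvd_mul_left (h5 ▸ dvd_mul_right _ _)

end Cfsg.Agent.H307.HT
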