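import Cfsg.Agent.H608.HT.Moment
import Cfsg.Agent.H307.HT.Val
import Cfsg.Agent.H34.TI.Defs
import Cfsg.Agent.H34.TI.J4Cnt
import Cfsg.Agent.H23.FreeAct
import Cfsg.Agent.H608.TI.Final
import Cfsg.Agent.H592.Defect
import Cfsg.Agent.H633.Unique
import Cfsg.Agent.S0908

/-!
# S4933: a TI Sylow subgroup of order `p³` (helper307, after helper608's `J₄`)

* `TC p z P` : `z` central of order `p` in `P`, `|P| = p³`, the conjugates of `z` commuting with some `u ≠ 1` in `P` lie in
  `⟨z⟩`;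
* `TC.n2_mod` : `N₂(z) ≡ p - 2` modulo `p³`; `TC.isTI` : `P` is TI;
* `TC.exists_deg`, `TC.mem_principal`.
-/

set_option autoImplicit false
set_option linter.unusedSectionVars false

open Cfsg Subgroup
open scoped Pointwise

namespace Cfsg.Agent.H307.HT

open Cfsg.Agent.H608.HT (N2 moment)

universe u

/-- a TI subgroup of order `p³` and its centre -/
structure TC (p : ℕ) {G : Type u} [Group G] (z : G) (P : Subgroup G) : Prop where
  card_P : Nat.card P = p ^ 3
  ord_z : orderOf z = p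
  z_comm : ∀ u ∈ P, z * u = u * z
  conj_z : ∀ u ∈ zpowers z, u ≠ 1 → IsConj z u
  key : ∀ a u : G, IsConj z a → u ∈ P → u ≠ 1 → a * u = u * a → a ∈ zpowers z
  mem_P : ∀ g : G, g * z = z * g → g ^ (p ^ 3) = 1 → g ∈ P

theorem n2_eq {G : Type u} [Group G] (z : G) : N2 z = Nat.card {a : G // IsConj z a ∧ IsConj z (a⁻¹ * z)} := by
  refine Nat.card_congr
    { toFun := fun q => ⟨q.1.1, q.2.1, ?_⟩
      invFun := fun a => ⟨(a.1, a.1⁻¹ * z), a.2.1, a.2.2, mul_inv_cancel_left _ _⟩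
      left_inv := fun q => ?_
      right_inv := fun a => rfl }
  · have h := q.2.2.2
    have h2 : q.1.1⁻¹ * z = q.1.2 := inv_mul_eq_iff_eq_mul.2 h.symm
    rw [h2]
    exact q.2.2.1
  · apply Subtype.ext
    have h := q.2.2.2
    have h2 : q.1.1⁻¹ * z = q.1.2 := inv_mul_eq_iff_eq_mul.2 h.symm
    exact Prod.ext rfl h2

theorem isConj_conj {G : Type u} [Group G] {z a g : G} (h : IsConj z a) : IsConj z (g * a * g⁻¹) :=
  h.trans (isConj_iff.2 ⟨g, rfl⟩)

variable {G : Type u} [Group G] [Finite G] {p : ℕ} {z : G} {P : Subgroup G}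

namespace TC

variable (E : TC p z P)

include E

theorem z_ne (hp : p.Prime) : z ≠ 1 := by
  intro h
  have := E.ord_z
  rw [h, orderOf_one] at this
  exact hp.one_lt.ne this

theorem card_self (hp : p.Prime) (hp3 : 3 ≤ p) :
    Nat.card {a : G // (IsConj z a ∧ IsConj z (a⁻¹ * z)) ∧ a ∈ zpowers z} = p - 2 := by
  classical
  have := Fintype.ofFinite G
  have h3 : Nat.card {a : G // (IsConj z a ∧ IsConj z (a⁻¹ * z)) ∧ a ∈ zpowers z} =
      Nat.card {a : zpowers z // a ≠ 1 ∧ a ≠ ⟨z, mem_zpowers _⟩} := by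
    refine Nat.card_congr
      { toFun := fun a => ⟨⟨a.1, a.2.2⟩, ?_, ?_⟩
        invFun := fun a => ⟨a.1, ⟨?_, ?_⟩, a.1.2⟩
        left_inv := fun a => rfl
        right_inv := fun a => rfl }
    · intro h
      have h4 : a.1 = 1 := congrArg Subtype.val h
      have h5 := a.2.1.1
      rw [h4] at h5
      have h6 := H34.TI.orderOf_conj h5
      rw [E.ord_z, orderOf_one] at h6
      omega
    · intro h
      have h4 : a.1 = z := congrArg Subtype.val h
      have h5 := a.2.1.2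
      rw [h4, inv_mul_cancel] at h5
      have h6 := H34.TI.orderOf_conj h5
      rw [E.ord_z, orderOf_one] at h6
      omega
    · exact E.conj_z a.1 a.1.2 fun h => a.2.1 (Subtype.ext h)
    · refine E.conj_z _ (mul_mem (inv_mem a.1.2) (mem_zpowers _)) fun h => a.2.2 ?_
      apply Subtype.ext
      rw [inv_mul_eq_one] at h
      exact h
  rw [h3, Nat.card_eq_fintype_card, Fintype.card_subtype]
  have h4 : (Finset.univ.filter fun a : zpowers z => a ≠ 1 ∧ a ≠ ⟨z, mem_zpowers _⟩) =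
      (Finset.univ.erase 1).erase ⟨z, mem_zpowers _⟩ := by
    ext a
    simp only [Finset.mem_filter, Finset.mem_univ, true_and, Finset.mem_erase, and_true]
    exact and_comm
  rw [h4, Finset.card_erase_of_mem, Finset.card_erase_of_mem (Finset.mem_univ _), Finset.card_univ,
    ← Nat.card_eq_fintype_card, Nat.card_zpowers, E.ord_z]
  · omega
  rw [Finset.mem_erase]
  refine ⟨fun h => ?_, Finset.mem_univ _⟩
  have h5 : z = 1 := congrArg Subtype.val h
  exact E.z_ne hp h5

/-- **`N₂(z)` modulo `p³`** -/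
theorem n2_mod (hp : p.Prime) (hp3 : 3 ≤ p) : ∃ t : ℕ, N2 z = p - 2 + p ^ 3 * t := by
  classical
  have := Fintype.ofFinite G
  rw [n2_eq]
  let S : Type u := {a : G // (IsConj z a ∧ IsConj z (a⁻¹ * z)) ∧ a ∉ zpowers z}
  have hact : ∀ (d : P) (a : G), ((IsConj z a ∧ IsConj z (a⁻¹ * z)) ∧ a ∉ zpowers z) →
      ((IsConj z (d * a * (d : G)⁻¹) ∧ IsConj z ((d * a * (d : G)⁻¹)⁻¹ * z)) ∧ d * a * (d : G)⁻¹ ∉ zpowers z) := by
    rintro d a ⟨⟨h1, h2⟩, h3⟩
    have hdz : z * d = d * z := E.z_comm d d.2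
    refine ⟨⟨isConj_conj h1, ?_⟩, ?_⟩
    · have h4 : (d * a * (d : G)⁻¹)⁻¹ * z = d * (a⁻¹ * z) * (d : G)⁻¹ := by
        calc (d * a * (d : G)⁻¹)⁻¹ * z = d * a⁻¹ * (d : G)⁻¹ * (z * d) * (d : G)⁻¹ := by group
          _ = d * a⁻¹ * (d : G)⁻¹ * (d * z) * (d : G)⁻¹ := by rw [hdz]
          _ = _ := by group
      rw [h4]
      exact isConj_conj h2
    · intro h4
      apply h3
      obtain ⟨k, hk⟩ := mem_zpowers_iff.1 h4
      refine mem_zpowers_iff.2 ⟨k, ?_⟩
      have h5 : Commute (z ^ k) (d : G) := (show Commute z (d : G) from hdz).zpow_left k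
      have h6 : a = (d : G)⁻¹ * (z ^ k) * d := by rw [hk]; group
      rw [h6, mul_assoc, h5.eq, inv_mul_cancel_left]
  let act : MulAction P S :=
    { smul := fun d s => ⟨d * s.1 * (d : G)⁻¹, hact d s.1 s.2⟩
      one_smul := fun s => Subtype.ext (by
        show ((1 : P) : G) * s.1 * ((1 : P) : G)⁻¹ = s.1
        simp)
      mul_smul := fun c d s => Subtype.ext (by
        show ((c * d : P) : G) * s.1 * ((c * d : P) : G)⁻¹ = c * (d * s.1 * (d : G)⁻¹) * (c : G)⁻¹
        rw [coe_mul, mul_inv_rev]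
        simp only [mul_assoc]) }
  have hdvd : Nat.card P ∣ Nat.card S := by
    refine H23.FreeAct.card_dvd_of_free fun d s hds => ?_
    by_contra hd
    have h1 : (d : G) * s.1 * (d : G)⁻¹ = s.1 := congrArg Subtype.val hds
    have h2 : s.1 * d = d * s.1 := by
      rw [mul_inv_eq_iff_eq_mul] at h1
      exact h1.symm
    exact s.2.2 (E.key _ _ s.2.1.1 d.2 (fun h => hd (Subtype.ext h)) h2)
  rw [E.card_P] at hdvd
  obtain ⟨t, ht⟩ := hdvd
  refine ⟨t, ?_⟩
  have h1 : Nat.card {a : G // IsConj z a ∧ IsConj z (a⁻¹ * z)} =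
      Nat.card {a : G // (IsConj z a ∧ IsConj z (a⁻¹ * z)) ∧ a ∈ zpowers z} + Nat.card S := by
    rw [Nat.card_eq_fintype_card, Nat.card_eq_fintype_card, Nat.card_eq_fintype_card, Fintype.card_subtype,
      Fintype.card_subtype, Fintype.card_subtype,
      ← Finset.filter_filter (fun a : G => IsConj z a ∧ IsConj z (a⁻¹ * z)) (fun a => a ∈ zpowers z),
      ← Finset.filter_filter (fun a : G => IsConj z a ∧ IsConj z (a⁻¹ * z)) (fun a => a ∉ zpowers z)]
    exact (Finset.card_filter_add_card_filter_not _).symm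
  rw [h1, E.card_self hp hp3, ht]

/-- the normalizer of `⟨z⟩` normalizes `P` -/
theorem mem_norm {g : G} (h : g * z * g⁻¹ ∈ zpowers z) : g ∈ normalizer (P : Set G) := by
  have hz : z ∈ zpowers (g * z * g⁻¹) := by
    have h2 : zpowers (g * z * g⁻¹) = zpowers z := by
      refine Subgroup.eq_of_le_of_card_ge (zpowers_le.2 h) ?_
      rw [Nat.card_zpowers, Nat.card_zpowers]
      exact (H34.TI.orderOf_conj (isConj_iff.2 ⟨g, rfl⟩)).le
    rw [h2]; exact mem_zpowers _
  have hmap : ∀ x ∈ P, g * x * g⁻¹ ∈ P := by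
    intro x hx
    refine E.mem_P _ ?_ ?_
    · obtain ⟨k, hk⟩ := mem_zpowers_iff.1 hz
      have h3 : Commute (g * x * g⁻¹) (g * z * g⁻¹) := by
        show (g * x * g⁻¹) * (g * z * g⁻¹) = (g * z * g⁻¹) * (g * x * g⁻¹)
        have h4 := E.z_comm x hx
        calc (g * x * g⁻¹) * (g * z * g⁻¹) = g * (x * z) * g⁻¹ := by group
          _ = g * (z * x) * g⁻¹ := by rw [h4]
          _ = _ := by group
      rw [← hk]
      exact (h3.zpow_right k).eq
    · rw [conj_pow]
      have h3 : x ^ (p ^ 3) = 1 := by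
        rw [← E.card_P]
        have := pow_card_eq_one' (x := (⟨x, hx⟩ : P))
        exact congrArg Subtype.val this
      rw [h3, mul_one, mul_inv_cancel]
  rw [Subgroup.mem_normalizer_iff]
  intro x
  refine ⟨hmap x, fun hx => ?_⟩
  have hinj : Function.Injective (fun y : P => (⟨g * y * g⁻¹, hmap y y.2⟩ : P)) := by
    intro a b hab
    have h3 : g * (a : G) * g⁻¹ = g * b * g⁻¹ := congrArg Subtype.val hab
    exact Subtype.ext (by simpa using h3)
  obtain ⟨y, hy⟩ := Finite.surjective_of_injective hinj ⟨g * x * g⁻¹, hx⟩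
  have h3 : g * (y : G) * g⁻¹ = g * x * g⁻¹ := congrArg Subtype.val hy
  have h4 : (y : G) = x := by simpa using h3
  rw [← h4]; exact y.2

/-- **`P` is TI** -/
theorem isTI : H34.TI.IsTI P := by
  intro g hg
  rw [eq_bot_iff]
  rintro u ⟨hu, hu'⟩
  rw [mem_bot]
  by_contra hu1
  have h1 : g⁻¹ * u * g ∈ P := by
    have h2 := Subgroup.mem_pointwise_smul_iff_inv_smul_mem.1 hu'
    rw [← map_inv, MulAut.smul_def, MulAut.conj_apply, inv_inv] at h2
    exact h2
  have h2 : (g * z * g⁻¹) * u = u * (g * z * g⁻¹) := by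
    have h3 := E.z_comm _ h1
    calc (g * z * g⁻¹) * u = g * (z * (g⁻¹ * u * g)) * g⁻¹ := by group
      _ = g * ((g⁻¹ * u * g) * z) * g⁻¹ := by rw [h3]
      _ = _ := by group
  exact hg (E.mem_norm (E.key _ _ (isConj_iff.2 ⟨g, rfl⟩) hu hu1 h2))

/-- some degree is divisible by `p` but not by `p³` -/
theorem exists_deg (hp : p.Prime) (hp3 : 3 ≤ p) {n k : ℕ} (hN : Nat.card G = p ^ 3 * n) (hn : ¬ p ∣ n)
    (hk : (centralizer ({z} : Set G)).index = k) (htest : ¬ (p : ℤ) ^ 3 ∣ (p - 2) - 3 * k - (k : ℤ) ^ 2)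
    {g t : G} (hg : orderOf g = p) (hgz : g * z = z * g) (htz : t * z = z * t) (ht : t * g * t⁻¹ = g * z) :
    ∃ χ : IrrCharacter G, p ∣ charDegree (χ : G → ℂ) ∧ ¬ p ^ 3 ∣ charDegree (χ : G → ℂ) := by
  classical
  have : Fact p.Prime := ⟨hp⟩
  by_contra hcon
  push Not at hcon
  have hdeg : ∀ χ : IrrCharacter G, (χ : G → ℂ) 1 = ((charDegree (χ : G → ℂ) : ℤ) : ℂ) := fun χ => by
    rw [Blocks.Basic.irr_one_eq_charDegree χ.2]; simp
  have hch : ∀ χ : IrrCharacter G, IsCharacter G (χ : G → ℂ) := fun χ => Characters.Core.isIrr_isCharacter χ.2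
  have hint : ∀ χ : IrrCharacter G, ∃ a : ℤ, (χ : G → ℂ) z = a := fun χ =>
    exists_int hp E.ord_z E.conj_z (hch χ) (hdeg χ)
  choose a ha using hint
  obtain ⟨m, hm⟩ := E.n2_mod hp hp3
  have h4 : ¬ p ^ 4 ∣ Nat.card G := by
    rintro ⟨r, hr⟩
    rw [hN, pow_succ p 3, mul_assoc] at hr
    exact hn ⟨r, Nat.eq_of_mul_eq_mul_left (pow_pos hp.pos 3) hr⟩
  have h1 := moment (G := G) p (by rw [hN]; exact dvd_mul_right _ _) h4 (E.z_ne hp) (by rw [E.ord_z]) a ha
    (fun χ => sq_dvd hp E.ord_z hg hgz htz ht (hch χ) (hdeg χ) fun v hv hv1 => by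
      rw [← ha χ]
      exact (apply_conj (hch χ) (E.conj_z v hv hv1)).symm)
    (fun χ => by
      by_cases h : p ∣ charDegree (χ : G → ℂ)
      · exact Or.inr (hcon χ h)
      · exact Or.inl h)
  apply htest
  rw [hk, hm] at h1
  have h5 : (((p - 2 + p ^ 3 * m : ℕ) : ℤ) - 3 * k - (k : ℤ) ^ 2) =
      ((p - 2) - 3 * k - (k : ℤ) ^ 2) + (p : ℤ) ^ 3 * m := by
    have h6 : ((p - 2 : ℕ) : ℤ) = (p : ℤ) - 2 := by
      have : 2 ≤ p := by omega
      push_cast [this]
      ring
    push_cast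
    rw [h6]
    ring
  rw [h5] at h1
  exact (Int.dvd_add_left (dvd_mul_right _ _)).1 h1

/-- the members of positive defect lie in the principal block -/
theorem mem_principal [Fact p.Prime] {n : ℕ} (hN : Nat.card G = p ^ 3 * n) (hn : ¬ p ∣ n)
    {M : Ideal AlgInt} (hM : IsPModular p M) (hC : ∀ Q : Sylow p G, IsPGroup p (centralizer ((Q : Subgroup G) : Set G)))
    (χ : IrrCharacter G) (hχ : ¬ p ^ 3 ∣ charDegree (χ : G → ℂ)) : χ ∈ principalBlock M G := by
  have hp : p.Prime := Fact.out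
  have hMp := Blocks.Local.isPrime_of_isPModular hM
  have hn0 : n ≠ 0 := by
    rintro rfl
    exact hn (dvd_zero _)
  have hv : (Nat.card G).factorization p = 3 := by
    rw [hN, Nat.factorization_mul (pow_ne_zero _ hp.ne_zero) hn0, Finsupp.add_apply, Nat.factorization_pow,
      Finsupp.smul_apply, hp.factorization_self, Nat.factorization_eq_zero_of_not_dvd hn]
    simp
  obtain ⟨Q, hQ⟩ : ∃ Q : Sylow p G, (Q : Subgroup G) = P := by
    have h1 : IsPGroup p P := IsPGroup.of_card (n := 3) E.card_P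
    obtain ⟨P', hP'⟩ := h1.exists_le_sylow
    have h2 : Nat.card (P' : Subgroup G) = p ^ 3 := by
      rw [P'.card_eq_multiplicity, hv]
    exact ⟨P', (Subgroup.eq_of_le_of_card_ge hP' (by rw [h2, E.card_P])).symm⟩
  have hTI : H34.TI.IsTI (Q : Subgroup G) := by rw [hQ]; exact E.isTI
  have hB : IsPBlock M (blockOf M (χ : G → ℂ)) := ⟨χ, rfl⟩
  have hmem : χ ∈ blockOf M (χ : G → ℂ) := Blocks.Basic.mem_blockOf_self χ
  rcases H608.TI.defect_P hM Q hTI hB with h | ⟨χ', h1, h2⟩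
  · obtain ⟨ψ, hψ, -, h4⟩ := H592.Defect.exists_height_zero p hM hB
    have h5 := Cfsg.Agent.S0908.result p M hM _ hB _ h
    rw [Q.card_eq_multiplicity, hv] at h5
    have h6 : blockDefect p (blockOf M (χ : G → ℂ)) = 3 := (Nat.pow_right_injective hp.two_le h5).symm
    rw [h6, hv] at h4
    have h7 : (charDegree (ψ : G → ℂ)).factorization p = 0 := by omega
    have h8 : ¬ p ∣ charDegree (ψ : G → ℂ) := by
      intro h9
      have h10 := (Nat.Prime.dvd_iff_one_le_factorization hp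
        (Blocks.Basic.charDegree_pos ψ.2).ne').1 h9
      omega
    have h9 : ψ ∈ principalBlock M G := H633.Unique.mem_of_centralizer hM Q (hC Q) ψ h8
    have h10 : blockOf M (χ : G → ℂ) = principalBlock M G :=
      Blocks.Basic.isPBlock_eq_of_mem hB Blocks.PrincipalSection.isPBlock_principalBlock hψ h9
    rw [← h10]
    exact hmem
  · exfalso
    rw [h1] at hmem
    have h3 : χ = χ' := hmem
    subst h3
    apply hχ
    have h4 : (charDegree (χ : G → ℂ)).factorization p = 3 := by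
      rw [← hv]
      exact h2
    have h5 := Nat.ordProj_dvd (charDegree (χ : G → ℂ)) p
    rwa [h4] at h5

end TC

end Cfsg.Agent.H307.HT
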